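import Cfsg.Agent.Lib.Helper69.EQ.Defs
set_option autoImplicit false

namespace Cfsg.Agent.Lib.Helper69.EQ

theorem ar_list {p n : ℕ} (hp : p.Prime) (hn : 3 ≤ n)
    (h : p ^ n ∈ ({9, 25, 49, 121, 529, 81} : Set ℕ)) : p = 3 ∧ n = 4 := by
  have key : ∀ s e : ℕ, s.Prime → p ^ n = s ^ e → p = s ∧ n = e := by
    intro s e hs h
    have h1 : p ∣ s ^ e := by rw [← h]; exact dvd_pow_self p (by omega)
    have h2 : p = s := (Nat.prime_dvd_prime_iff_eq hp hs).1 (hp.dvd_of_dvd_pow h1)
    subst h2
    exact ⟨rfl, Nat.pow_right_injective hp.two_le h⟩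
  simp only [Set.mem_insert_iff, Set.mem_singleton_iff] at h
  rcases h with h | h | h | h | h | h
  · have := key 3 2 (by norm_num) (by rw [h]; norm_num)
    omega
  · have := key 5 2 (by norm_num) (by rw [h]; norm_num)
    omega
  · have := key 7 2 (by norm_num) (by rw [h]; norm_num)
    omega
  · have := key 11 2 (by norm_num) (by rw [h]; norm_num)
    omega
  · have := key 23 2 (by norm_num) (by rw [h]; norm_num)
    omega
  · exact key 3 4 (by norm_num) (by rw [h]; norm_num)

end Cfsg.Agent.Lib.Helper69.EQ
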