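import Cfsg.Agent.Lib.Helper69.EQ.Defs
set_option autoImplicit false

namespace Cfsg.Agent.Lib.Helper69.EQ

theorem ar_dvd {p n l g : ℕ} (hp : p.Prime) (hn : 3 ≤ n)
    (h1 : l * ((p ^ 2 - 1) * (p ^ 2 - p)) = (p ^ n - 1) * (p ^ n - p))
    (h2 : l * (p - 1) ∣ g) (h3 : g ∣ p ^ n * (p ^ n - 1) * n) (h4 : ¬ p ∣ g) :
    (p ^ (n - 1) - 1) ∣ n * (p ^ 2 - 1) := by
  have hcop : Nat.Coprime g (p ^ n) :=
    (Nat.Coprime.pow_left n ((Nat.Prime.coprime_iff_not_dvd hp).2 h4)).symm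
  have h5 : g ∣ (p ^ n - 1) * n := by
    rw [mul_assoc] at h3
    exact hcop.dvd_of_dvd_mul_left h3
  obtain ⟨t, ht⟩ := h2.trans h5
  have e1 : p ^ n - p = p * (p ^ (n - 1) - 1) := by
    rw [Nat.mul_sub, mul_one, ← pow_succ', Nat.sub_add_cancel (by omega)]
  have e2 : p ^ 2 - p = p * (p - 1) := by
    rw [Nat.mul_sub, mul_one, sq]
  have hB : 0 < p ^ n - 1 := by
    have : 1 < p ^ n := Nat.one_lt_pow (by omega) hp.one_lt
    omega
  have hc : 0 < p - 1 := by have := hp.two_le; omega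
  rw [e1, e2] at h1
  generalize p ^ (n - 1) - 1 = A at *
  generalize p ^ n - 1 = B at *
  generalize p - 1 = c at *
  generalize p ^ 2 - 1 = E at *
  refine ⟨t, ?_⟩
  have hpos : 0 < B * (p * c) := Nat.mul_pos hB (Nat.mul_pos hp.pos hc)
  apply Nat.eq_of_mul_eq_mul_left hpos
  calc B * (p * c) * (n * E) = (B * n) * (p * c * E) := by ring
    _ = l * c * t * (p * c * E) := by rw [ht]
    _ = (l * (E * (p * c))) * c * t := by ring
    _ = B * (p * A) * c * t := by rw [h1]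
    _ = B * (p * c) * (A * t) := by ring

end Cfsg.Agent.Lib.Helper69.EQ
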