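import Cfsg.Agent.Lib.Helper69.EQ.Defs

set_option autoImplicit false

namespace Cfsg.Agent.Lib.Helper69.EQ

theorem AR7_two_pow (m : ℕ) (hm : 3 ≤ m) : m + 3 < 2 ^ m := by
  induction m, hm using Nat.le_induction with
  | base => norm_num
  | succ m hm ih => rw [pow_succ]; omega

/-- AR7 -/
theorem ar_final {p n : ℕ} (hp : p.Prime) (hn : 3 ≤ n) (h : (p ^ (n - 1) - 1) ∣ n * (p ^ 2 - 1)) :
    n = 3 ∨ (n = 5 ∧ p = 2) := by
  have hp2 : 2 ≤ p := hp.two_le
  have hsq : 4 ≤ p ^ 2 := by nlinarith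
  have hpos : 0 < n * (p ^ 2 - 1) := Nat.mul_pos (by omega) (by omega)
  have hle := Nat.le_of_dvd hpos h
  rcases Nat.lt_or_ge n 6 with h6 | h6
  · interval_cases n
    · left; rfl
    · exfalso
      have e : p ^ (4 - 1) = p ^ 2 * p := by norm_num [pow_succ]
      rw [e] at hle h
      rcases Nat.lt_or_ge p 4 with h4 | h4
      · interval_cases p
        · norm_num at h
        · norm_num at h
      · have : p ^ 2 * 4 ≤ p ^ 2 * p := Nat.mul_le_mul_left _ h4
        omega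
    · right
      refine ⟨rfl, ?_⟩
      have e : p ^ (5 - 1) = p ^ 2 * p ^ 2 := by norm_num [← pow_add]
      rw [e] at hle
      by_contra hne
      have h3 : 3 ≤ p := by omega
      have h9 : 9 ≤ p ^ 2 := by nlinarith
      have : p ^ 2 * 9 ≤ p ^ 2 * p ^ 2 := Nat.mul_le_mul_left _ h9
      omega
  · exfalso
    have e : p ^ (n - 1) = p ^ (n - 3) * p ^ 2 := by rw [← pow_add]; congr 1; omega
    have h1 : (n - 3) + 3 < 2 ^ (n - 3) := AR7_two_pow (n - 3) (by omega)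
    have h2 : 2 ^ (n - 3) ≤ p ^ (n - 3) := Nat.pow_le_pow_left hp2 _
    have h3 : (n + 1) * p ^ 2 ≤ p ^ (n - 3) * p ^ 2 := Nat.mul_le_mul_right _ (by omega)
    rw [e] at hle
    have h4 : n * (p ^ 2 - 1) ≤ n * p ^ 2 := Nat.mul_le_mul_left _ (by omega)
    have h5 : (n + 1) * p ^ 2 = n * p ^ 2 + p ^ 2 := by ring
    omega

end Cfsg.Agent.Lib.Helper69.EQ
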