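import Cfsg.Agent.Lib.Helper69.EQ.Defs
import Cfsg.Agent.Lib.Helper48.Core

set_option autoImplicit false

namespace Cfsg.Agent.Lib.Helper69.EQ

universe u

section
variable {p n : ℕ} [Fact p.Prime] {X : Type u} [Group X] [Finite X] {Q : Subgroup X}
variable {V : Type*} [AddCommGroup V] [Module (ZMod p) V] [Finite V]

theorem KQ_mem_ker_of_comm (lin : Lin p Q V) (x : X) (hx : ∀ u ∈ Q, x * u * x⁻¹ = u) :
    x ∈ lin.ρ.ker := by
  rw [MonoidHom.mem_ker]
  apply LinearEquiv.ext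
  intro v
  apply lin.ι.injective
  apply Subtype.ext
  rw [lin.conj, hx _ (lin.ι v).2]
  rfl

theorem Q_le_ker (h : Cfg p n Q) (lin : Lin p Q V) : Q ≤ lin.ρ.ker := by
  intro x hx
  apply KQ_mem_ker_of_comm lin
  intro u hu
  rw [h.comm x hx u hu, mul_inv_cancel_right]

theorem KQ_inf_eq_bot (h : Cfg p n Q) : Cfsg.pPrimeCore p X ⊓ Q = ⊥ := by
  have hcop : (Nat.card (Cfsg.pPrimeCore p X)).Coprime (Nat.card Q) := by
    rw [h.card]
    exact Nat.Coprime.pow_right _ Cfsg.Agent.Lib.Helper48.card_pPrimeCore_coprime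
  exact (Subgroup.disjoint_of_coprime_natCard hcop).eq_bot

theorem core_le_ker (h : Cfg p n Q) (lin : Lin p Q V) : Cfsg.pPrimeCore p X ≤ lin.ρ.ker := by
  intro k hk
  apply KQ_mem_ker_of_comm lin
  intro u hu
  have hn := h.normal
  have h1 : k * u * k⁻¹ * u⁻¹ ∈ Cfsg.pPrimeCore p X ⊓ Q := by
    refine Subgroup.mem_inf.mpr ⟨?_, ?_⟩
    · have : k * u * k⁻¹ * u⁻¹ = k * (u * k⁻¹ * u⁻¹) := by group
      rw [this]
      exact mul_mem hk ((Cfsg.pPrimeCore_normal p X).conj_mem _ (inv_mem hk) u)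
    · exact mul_mem (hn.conj_mem u hu k) (inv_mem hu)
  rw [KQ_inf_eq_bot h, Subgroup.mem_bot] at h1
  exact mul_inv_eq_one.mp h1

end

end Cfsg.Agent.Lib.Helper69.EQ
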