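import Cfsg.Agent.Lib.Helper69.EQ.Defs
import Cfsg.Agent.Lib.Helper69.EQ.KQ

set_option autoImplicit false

namespace Cfsg.Agent.Lib.Helper69.EQ

universe u

section
variable {p n : ℕ} [Fact p.Prime] {X : Type u} [Group X] [Finite X] {Q : Subgroup X}
variable {V : Type*} [AddCommGroup V] [Module (ZMod p) V] [Finite V]

theorem card_mul_dvd (h : Cfg p n Q) (lin : Lin p Q V) :
    Nat.card Q * Nat.card lin.ρ.range ∣ Nat.card (X ⧸ Cfsg.pPrimeCore p X) := by
  set K := Cfsg.pPrimeCore p X with hK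
  set C := lin.ρ.ker with hC
  have hKC : K ≤ C := core_le_ker h lin
  have hQC : Q ≤ C := Q_le_ker h lin
  have h1 : Nat.card (X ⧸ K) = K.relIndex C * C.index := by
    rw [Subgroup.relIndex_mul_index hKC]; rfl
  have h2 : C.index = Nat.card lin.ρ.range := Subgroup.index_ker lin.ρ
  rw [h1, h2]
  apply Nat.mul_dvd_mul_right
  -- card Q ∣ K.relIndex C
  have hn : (K.subgroupOf C).Normal := inferInstance
  let f : Q →* (C ⧸ K.subgroupOf C) :=
    (QuotientGroup.mk' (K.subgroupOf C)).comp (Subgroup.inclusion hQC)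
  have hf : Function.Injective f := by
    rw [injective_iff_map_eq_one]
    intro a ha
    have h3 : (Subgroup.inclusion hQC a) ∈ K.subgroupOf C := by
      rw [← QuotientGroup.eq_one_iff]
      exact ha
    rw [Subgroup.mem_subgroupOf] at h3
    have h4 : (a : X) ∈ K ⊓ Q := Subgroup.mem_inf.mpr ⟨h3, a.2⟩
    rw [hK, KQ_inf_eq_bot h, Subgroup.mem_bot] at h4
    exact Subtype.ext h4
  exact Subgroup.card_dvd_of_injective f hf

end

end Cfsg.Agent.Lib.Helper69.EQ
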