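import Cfsg.Agent.Lib.Helper69.EQ.Defs
import Cfsg.Agent.Lib.Helper67.Elus.CNT1

set_option autoImplicit false

namespace Cfsg.Agent.Lib.Helper69.EQ

section
variable {p n : ℕ} [Fact p.Prime] {V : Type*} [AddCommGroup V] [Module (ZMod p) V] [Finite V]

theorem card_lines (hV : Nat.card V = p ^ n) (hn : 2 ≤ n) :
    Nat.card (Lines p V) * ((p ^ 2 - 1) * (p ^ 2 - p)) = (p ^ n - 1) * (p ^ n - p) := by
  have hp : p.Prime := Fact.out
  have hfr : Module.finrank (ZMod p) V = n := by
    have h1 := Module.natCard_eq_pow_finrank (K := ZMod p) (V := V)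
    rw [hV, Nat.card_eq_fintype_card, ZMod.card] at h1
    exact (Nat.pow_right_injective hp.two_le h1).symm
  have h := Cfsg.Agent.Lib.Helper67.Elus.cnt_mul_gen_CNT1 (F := ZMod p) (V := V) 2 (by omega)
  rw [hfr, ZMod.card, Fin.prod_univ_two, Fin.prod_univ_two] at h
  simpa using h

end

end Cfsg.Agent.Lib.Helper69.EQ
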