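import Cfsg.Agent.Lib.Helper69.EQ.Defs

set_option autoImplicit false

namespace Cfsg.Agent.Lib.Helper69.EQ

/-- the permutation `x ↦ a φ x + b` -/
def CS_perm {F : Type*} [Field F] (t : Fˣ × F × (F ≃+* F)) : Equiv.Perm F where
  toFun x := (t.1 : F) * t.2.2 x + t.2.1
  invFun x := t.2.2.symm (((t.1⁻¹ : Fˣ) : F) * (x - t.2.1))
  left_inv x := by simp
  right_inv x := by simp

theorem CS_perm_apply {F : Type*} [Field F] (t : Fˣ × F × (F ≃+* F)) (x : F) :
    CS_perm t x = (t.1 : F) * t.2.2 x + t.2.1 := rfl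

theorem CS_perm_injective {F : Type*} [Field F] :
    Function.Injective (CS_perm : Fˣ × F × (F ≃+* F) → Equiv.Perm F) := by
  rintro ⟨a, b, φ⟩ ⟨a', b', φ'⟩ h
  have h' : ∀ x : F, (a : F) * φ x + b = (a' : F) * φ' x + b' := fun x => by
    have := congrArg (fun s : Equiv.Perm F => s x) h
    simpa only [CS_perm_apply] using this
  have hb : b = b' := by simpa using h' 0
  have ha : (a : F) = a' := by
    have := h' 1
    rw [map_one, map_one, mul_one, mul_one, hb] at this
    exact add_right_cancel this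
  have ha' : a = a' := Units.ext ha
  subst hb ha'
  have hφ : φ = φ' := by
    ext x
    have := add_right_cancel (h' x)
    exact mul_left_cancel₀ a.ne_zero this
  rw [hφ]

theorem card_semiaffine (F : Type*) [Field F] [Finite F] :
    Nat.card (Cfsg.semiaffineGroup F) = Nat.card F * (Nat.card F - 1) * Nat.card (F ≃+* F) := by
  have e : (Fˣ × F × (F ≃+* F)) ≃ Cfsg.semiaffineGroup F :=
    Equiv.ofBijective (fun t => ⟨CS_perm t, ⟨t.1, t.2.1, t.2.2, fun x => rfl⟩⟩) (by
      constructor
      · intro t t' h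
        exact CS_perm_injective (congrArg Subtype.val h)
      · rintro ⟨s, a, b, φ, hs⟩
        refine ⟨⟨a, b, φ⟩, ?_⟩
        apply Subtype.ext
        ext x
        exact (hs x).symm)
  rw [← Nat.card_congr e, Nat.card_prod, Nat.card_prod, Nat.card_units]
  ring

end Cfsg.Agent.Lib.Helper69.EQ
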