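import Mathlib
import Cfsg.Prelude.Def_Transfer
import Cfsg.Prelude.Def_CaseTheorems
import Cfsg.Prelude.Def_Perm

set_option autoImplicit false

/-! Definitions for S4025 (equal order p-subgroups conjugate, elementary abelian Sylow p-subgroup). -/

namespace Cfsg.Agent.Lib.Helper69.EQ

/-- the configuration inside `X = N_G(P)`, `Q = P` -/
structure Cfg (p n : ℕ) {X : Type*} [Group X] (Q : Subgroup X) : Prop where
  normal : Q.Normal
  comm : ∀ a ∈ Q, ∀ b ∈ Q, a * b = b * a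
  exp : ∀ a ∈ Q, a ^ p = 1
  card : Nat.card Q = p ^ n
  idx : ¬ p ∣ Q.index
  fus : ∀ A B : Subgroup X, A ≤ Q → B ≤ Q → Nat.card A = Nat.card B →
    ∃ m : X, B = A.map (MulAut.conj m).toMonoidHom
  solv : Group.IsSolvable (X ⧸ Cfsg.pPrimeCore p X)

/-- `Q` written additively as an `F_p`-space `V`, with the conjugation action of `X` -/
structure Lin (p : ℕ) {X : Type*} [Group X] (Q : Subgroup X) (V : Type*) [AddCommGroup V]
    [Module (ZMod p) V] where
  ι : V ≃ Q
  ρ : X →* (V ≃ₗ[ZMod p] V)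
  map_add : ∀ v w, ι (v + w) = ι v * ι w
  conj : ∀ x v, ((ι (ρ x v) : Q) : X) = x * (ι v : X) * x⁻¹

/-- the linear configuration -/
structure LCfg (p n : ℕ) {V : Type*} [AddCommGroup V] [Module (ZMod p) V]
    (L : Subgroup (V ≃ₗ[ZMod p] V)) : Prop where
  card : Nat.card V = p ^ n
  solv : Group.IsSolvable L
  cop : ¬ p ∣ Nat.card L
  trans : ∀ A B : Submodule (ZMod p) V, Module.finrank (ZMod p) A = Module.finrank (ZMod p) B →
    ∃ g ∈ L, A.map (g : V →ₗ[ZMod p] V) = B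

/-- `L` contains the scalars -/
def HasScalars (p : ℕ) {V : Type*} [AddCommGroup V] [Module (ZMod p) V]
    (L : Subgroup (V ≃ₗ[ZMod p] V)) : Prop :=
  ∀ c : (ZMod p)ˣ, ∃ g ∈ L, ∀ v, g v = (c : ZMod p) • v

/-- the 2-dimensional subspaces -/
abbrev Lines (p : ℕ) (V : Type*) [AddCommGroup V] [Module (ZMod p) V] : Type _ :=
  {W : Submodule (ZMod p) V // Module.finrank (ZMod p) W = 2}

/-- `g` is `x ↦ a σ(x)` in the coordinates `e` -/
def SemiLin {p : ℕ} {V : Type*} [AddCommGroup V] [Module (ZMod p) V] {F : Type*} [Field F]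
    (e : V ≃+ F) (g : V ≃ₗ[ZMod p] V) : Prop :=
  ∃ (a : F) (σ : F ≃+* F), ∀ v, e (g v) = a * σ (e v)

theorem finite_glv (p : ℕ) (V : Type*) [AddCommGroup V] [Module (ZMod p) V] [Finite V] :
    Finite (V ≃ₗ[ZMod p] V) :=
  Finite.of_injective (fun g : V ≃ₗ[ZMod p] V => (g : V → V)) DFunLike.coe_injective

end Cfsg.Agent.Lib.Helper69.EQ
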