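import Cfsg.Agent.Lib.Helper69.EQ.Defs
set_option autoImplicit false

namespace Cfsg.Agent.Lib.Helper69.EQ

universe u

variable {p n : ℕ} [Fact p.Prime] {X : Type u} [Group X] [Finite X] {Q : Subgroup X}

theorem exists_compl (h : Cfg p n Q) : ∃ H : Subgroup X, Subgroup.IsComplement' Q H := by
  have hp : p.Prime := Fact.out
  have := h.normal
  apply Subgroup.exists_right_complement'_of_coprime
  rw [h.card]
  exact Nat.Coprime.pow_left n ((Nat.Prime.coprime_iff_not_dvd hp).2 h.idx)

end Cfsg.Agent.Lib.Helper69.EQ
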