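import Cfsg.Agent.Lib.Helper69.EQ.Defs
import Cfsg.Agent.Lib.Helper48.Core

set_option autoImplicit false

namespace Cfsg.Agent.Lib.Helper69.EQ

universe u

section
variable {p n : ℕ} [Fact p.Prime] {X : Type u} [Group X] [Finite X] {Q : Subgroup X}

theorem normalCore_eq (h : Cfg p n Q) (H : Subgroup X) (hH : Subgroup.IsComplement' Q H) :
    H.normalCore = Cfsg.pPrimeCore p X := by
  have hp : p.Prime := Fact.out
  have hcard : Nat.card Q * Nat.card H = Nat.card X := hH.card_mul_card
  have hidx : Nat.card H = Q.index := by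
    have h1 := Q.card_mul_index
    have hpos : 0 < Nat.card Q := Nat.card_pos
    exact Nat.eq_of_mul_eq_mul_left hpos (hcard.trans h1.symm)
  have hHp : (Nat.card H).Coprime p := by
    rw [hidx, Nat.coprime_comm]
    exact (Nat.Prime.coprime_iff_not_dvd hp).mpr h.idx
  apply le_antisymm
  · apply Cfsg.Agent.Lib.Helper48.le_pPrimeCore inferInstance
    exact Nat.Coprime.coprime_dvd_left (Subgroup.card_dvd_of_le H.normalCore_le) hHp
  · have hKp : (Nat.card (Cfsg.pPrimeCore p X)).Coprime p :=
      Cfsg.Agent.Lib.Helper48.card_pPrimeCore_coprime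
    have hsup : (Nat.card (H ⊔ Cfsg.pPrimeCore p X : Subgroup X)).Coprime p :=
      Cfsg.Agent.Lib.Helper48.card_sup_coprime_of_normal hHp hKp
    have hdvd : Nat.card (H ⊔ Cfsg.pPrimeCore p X : Subgroup X) ∣ Nat.card H := by
      have h1 : Nat.card (H ⊔ Cfsg.pPrimeCore p X : Subgroup X) ∣ Nat.card Q * Nat.card H := by
        rw [hcard]; exact Subgroup.card_subgroup_dvd_card _
      rw [h.card] at h1
      exact (Nat.Coprime.pow_right n hsup).dvd_of_dvd_mul_left h1
    have heq : H = H ⊔ Cfsg.pPrimeCore p X :=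
      Subgroup.eq_of_le_of_card_ge le_sup_left (Nat.le_of_dvd Nat.card_pos hdvd)
    have hle : Cfsg.pPrimeCore p X ≤ H := by
      rw [heq]; exact le_sup_right
    exact (Subgroup.normal_le_normalCore).mpr hle

end

end Cfsg.Agent.Lib.Helper69.EQ
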