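import Cfsg.Agent.Lib.Helper69.EQ.Defs

set_option autoImplicit false

namespace Cfsg.Agent.Lib.Helper69.EQ

universe u

section
variable {p n : ℕ} [Fact p.Prime] {X : Type u} [Group X] [Finite X] {Q : Subgroup X}
variable {V : Type*} [AddCommGroup V] [Module (ZMod p) V] [Finite V]

/-- EM3 -/
theorem exists_perm_rep (h : Cfg p n Q) (lin : Lin p Q V) (H : Subgroup X) (hH : Subgroup.IsComplement' Q H)
    {F : Type*} [Field F] (e : V ≃+ F) (hsl : ∀ x, SemiLin e (lin.ρ x)) :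
    ∃ f0 : X →* Equiv.Perm F, f0.ker = H.normalCore ∧ ∀ x, f0 x ∈ Cfsg.semiaffineGroup F := by
  classical
  let β : X ⧸ H ≃ F := (Subgroup.IsComplement.leftQuotientEquiv hH).trans (lin.ι.symm.trans e.toEquiv)
  have hβs : ∀ y : F, β.symm y = QuotientGroup.mk ((lin.ι (e.symm y) : Q) : X) := fun y => rfl
  have hβ : ∀ v : V, β (QuotientGroup.mk ((lin.ι v : Q) : X)) = e v := by
    intro v
    rw [Equiv.apply_eq_iff_eq_symm_apply, hβs, AddEquiv.symm_apply_apply]
  let f0 : X →* Equiv.Perm F := (β.permCongrHom).toMonoidHom.comp (MulAction.toPermHom X (X ⧸ H))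
  have hf0 : ∀ x y, f0 x y = β (x • β.symm y) := fun x y => rfl
  refine ⟨f0, ?_, ?_⟩
  · rw [Subgroup.normalCore_eq_ker]
    ext x
    rw [MonoidHom.mem_ker, MonoidHom.mem_ker]
    exact (β.permCongrHom).map_eq_one_iff
  · intro x
    obtain ⟨a, σ, hσ⟩ := hsl x
    obtain ⟨⟨⟨q, hq⟩, ⟨k, hk⟩⟩, hqk⟩ := hH.2 x
    have hqk' : q * k = x := hqk
    have key : ∀ y, f0 x y = a * σ y + e (lin.ι.symm ⟨q, hq⟩) := by
      intro y
      rw [hf0, hβs]
      have h1 : x • (QuotientGroup.mk ((lin.ι (e.symm y) : Q) : X) : X ⧸ H) =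
          QuotientGroup.mk ((lin.ι (lin.ρ x (e.symm y) + lin.ι.symm ⟨q, hq⟩) : Q) : X) := by
        rw [MulAction.Quotient.smul_mk, QuotientGroup.eq, lin.map_add, Subgroup.coe_mul, lin.conj,
          Equiv.apply_symm_apply, smul_eq_mul]
        have h2 : (x * ((lin.ι (e.symm y) : Q) : X))⁻¹ *
            (x * ((lin.ι (e.symm y) : Q) : X) * x⁻¹ * q) = k⁻¹ := by
          rw [← hqk']; group
        rw [h2]
        exact H.inv_mem hk
      rw [h1, hβ, map_add, hσ, AddEquiv.apply_symm_apply]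
    have ha : a ≠ 0 := by
      rintro rfl
      have h0 := key 0
      have h1 := key 1
      have h2 : f0 x 0 = f0 x 1 := by rw [h0, h1, zero_mul, zero_mul]
      exact zero_ne_one ((f0 x).injective h2)
    exact ⟨Units.mk0 a ha, e (lin.ι.symm ⟨q, hq⟩), σ, key⟩

end

end Cfsg.Agent.Lib.Helper69.EQ
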