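import Cfsg.Agent.Lib.Helper69.EQ.Defs
set_option autoImplicit false

namespace Cfsg.Agent.Lib.Helper69.EQ

theorem exists_inj_of_ker {X Y : Type*} [Group X] [Group Y] (K : Subgroup X) [K.Normal] (S : Subgroup Y)
    (f0 : X →* Y) (hk : f0.ker = K) (hS : ∀ x, f0 x ∈ S) : ∃ f : X ⧸ K →* S, Function.Injective f := by
  have hle : ∀ x ∈ K, (f0.codRestrict S hS) x = 1 := by
    intro x hx
    apply Subtype.ext
    show f0 x = 1
    rw [← hk] at hx
    exact hx
  refine ⟨QuotientGroup.lift K (f0.codRestrict S hS) hle, ?_⟩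
  rw [injective_iff_map_eq_one]
  intro y hy
  obtain ⟨x, rfl⟩ := QuotientGroup.mk_surjective y
  have h1 : (f0.codRestrict S hS) x = 1 := hy
  have h2 : f0 x = 1 := congrArg Subtype.val h1
  have h3 : x ∈ K := by rw [← hk]; exact h2
  exact (QuotientGroup.eq_one_iff x).2 h3

end Cfsg.Agent.Lib.Helper69.EQ
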