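import Cfsg.Agent.Lib.Helper69.EQ.Defs
import Cfsg.Agent.Lib.Helper12.SemiAff

set_option autoImplicit false

namespace Cfsg.Agent.Lib.Helper69.EQ

theorem card_aut_of_card {p n : ℕ} [Fact p.Prime] (F : Type) [Field F] [Fintype F] (h : Nat.card F = p ^ n) (hn : n ≠ 0) :
    Nat.card (F ≃+* F) = n := by
  rw [Nat.card_eq_fintype_card] at h
  have : CharP F p := charP_of_card_eq_prime_pow h
  exact Cfsg.Agent.Lib.Helper12.SemiAff.card_ringAut F p n h

end Cfsg.Agent.Lib.Helper69.EQ
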