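import Cfsg.Agent.Lib.Helper69.EQ.Defs
import Cfsg.Agent.Lib.Helper12.SemiAff

set_option autoImplicit false

namespace Cfsg.Agent.Lib.Helper69.EQ

theorem card_aut_galoisField (p n : ℕ) [Fact p.Prime] (hn : n ≠ 0) :
    Nat.card (GaloisField p n ≃+* GaloisField p n) = n := by
  have : Fintype (GaloisField p n) := Fintype.ofFinite _
  have h := GaloisField.card p n hn
  rw [Nat.card_eq_fintype_card] at h
  exact Cfsg.Agent.Lib.Helper12.SemiAff.card_ringAut (GaloisField p n) p n h

end Cfsg.Agent.Lib.Helper69.EQ
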