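import Cfsg.Agent.Lib.Helper69.EQ.Defs

set_option autoImplicit false

namespace Cfsg.Agent.Lib.Helper69.EQ

theorem affine_le_semiaffine (F : Type*) [Field F] : Cfsg.affineGroup F ≤ Cfsg.semiaffineGroup F := by
  rintro s ⟨a, b, h⟩
  exact ⟨a, b, RingEquiv.refl F, fun x => by rw [h]; rfl⟩

theorem affine_conj_mem (F : Type*) [Field F] (s t : Equiv.Perm F) (hs : s ∈ Cfsg.semiaffineGroup F)
    (ht : t ∈ Cfsg.affineGroup F) : s * t * s⁻¹ ∈ Cfsg.affineGroup F := by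
  obtain ⟨c, d, φ, hs⟩ := hs
  obtain ⟨a, b, ht⟩ := ht
  refine ⟨Units.map (φ : F →* F) a, (c : F) * φ b + d - φ a * d, fun y => ?_⟩
  obtain ⟨x, rfl⟩ := s.surjective y
  have h1 : s⁻¹ (s x) = x := by simp
  simp only [Equiv.Perm.coe_mul, Function.comp_apply, h1, Units.coe_map, MonoidHom.coe_coe]
  rw [hs, ht, hs, map_add, map_mul]
  ring

end Cfsg.Agent.Lib.Helper69.EQ
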