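import Cfsg.Agent.Lib.Helper69.EQ.Defs
import Cfsg.Agent.Lib.Helper69.EQ.CS
import Cfsg.Agent.Lib.Helper69.EQ.CA
import Cfsg.Agent.Lib.Helper69.EQ.NA
import Cfsg.Agent.Lib.Helper69.EQ.GF

set_option autoImplicit false

namespace Cfsg.Agent.Lib.Helper69.EQ

theorem FIN3_aux {Y P : Type*} [Group Y] [Group P] (S A : Subgroup P) (hle : A ≤ S)
    (hconj : ∀ s t : P, s ∈ S → t ∈ A → s * t * s⁻¹ ∈ A) (hS : Nat.card S = 168)
    (hA : Nat.card A = 56) (f : Y →* S) (hf : Function.Injective f) (hY : Nat.card Y = 56) :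
    Nonempty (Y ≃* A) := by
  have hfinS : Finite S := Nat.finite_of_card_ne_zero (by rw [hS]; norm_num)
  let A' : Subgroup S := A.subgroupOf S
  have hA'n : A'.Normal := by
    constructor
    intro t ht s
    rw [Subgroup.mem_subgroupOf] at ht ⊢
    exact hconj s.1 t.1 s.2 ht
  have hA'c : Nat.card A' = 56 := by
    rw [Nat.card_congr (Subgroup.subgroupOfEquivOfLe hle).toEquiv, hA]
  have hA'i : A'.index = 3 := by
    have := A'.card_mul_index
    rw [hA'c, hS] at this
    omega
  have hRc : Nat.card f.range = 56 := by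
    rw [← Nat.card_congr (MonoidHom.ofInjective hf).toEquiv, hY]
  have h1 : A'.relIndex f.range ∣ 3 := by
    rw [← hA'i]; exact Subgroup.relIndex_dvd_index_of_normal A' f.range
  have h2 : A'.relIndex f.range ∣ 56 := by
    rw [← hRc]; exact Subgroup.relIndex_dvd_card A' f.range
  have h3 : A'.relIndex f.range = 1 := by
    have := Nat.dvd_gcd h1 h2
    simpa using this
  have hRle : f.range ≤ A' := Subgroup.relIndex_eq_one.1 h3
  have hReq : f.range = A' := Subgroup.eq_of_le_of_card_ge hRle (by rw [hRc, hA'c])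
  exact ⟨(MonoidHom.ofInjective hf).trans ((MulEquiv.subgroupCongr hReq).trans
    (Subgroup.subgroupOfEquivOfLe hle))⟩

theorem fin3 {Y : Type*} [Group Y] [Finite Y] (f : Y →* Cfsg.semiaffineGroup (GaloisField 2 3))
    (hf : Function.Injective f) (hd : 8 * 7 ∣ Nat.card Y) :
    Nonempty (Y ≃* Cfsg.semiaffineGroup (GaloisField 2 3)) ∨ Nonempty (Y ≃* Cfsg.affineGroup (GaloisField 2 3)) := by
  have hF : Nat.card (GaloisField 2 3) = 8 := by
    rw [GaloisField.card 2 3 (by norm_num)]; norm_num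
  have hS : Nat.card (Cfsg.semiaffineGroup (GaloisField 2 3)) = 168 := by
    rw [card_semiaffine, hF, card_aut_galoisField 2 3 (by norm_num)]
  have hA : Nat.card (Cfsg.affineGroup (GaloisField 2 3)) = 56 := by
    rw [card_affine, hF]
  have hdvd : Nat.card Y ∣ 168 := by
    rw [← hS]; exact Subgroup.card_dvd_of_injective f hf
  obtain ⟨k, hk⟩ := hd
  have hk3 : k ∣ 3 := by
    rw [hk] at hdvd
    have : 8 * 7 * k ∣ 8 * 7 * 3 := by simpa using hdvd
    exact Nat.dvd_of_mul_dvd_mul_left (by norm_num) this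
  have hk' : k = 1 ∨ k = 3 := (Nat.dvd_prime Nat.prime_three).1 hk3
  rcases hk' with rfl | rfl
  · right
    exact FIN3_aux _ _ (affine_le_semiaffine _) (affine_conj_mem _) hS hA f hf (by rw [hk])
  · left
    have hfinS : Finite (Cfsg.semiaffineGroup (GaloisField 2 3)) :=
      Nat.finite_of_card_ne_zero (by rw [hS]; norm_num)
    exact ⟨MulEquiv.ofBijective f ((Nat.bijective_iff_injective_and_card f).2 ⟨hf, by rw [hk, hS]⟩)⟩

end Cfsg.Agent.Lib.Helper69.EQ
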