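import Cfsg.Agent.Lib.Helper69.EQ.Defs
import Cfsg.Agent.Lib.Helper69.EQ.CS
import Cfsg.Agent.Lib.Helper69.EQ.GF

set_option autoImplicit false

namespace Cfsg.Agent.Lib.Helper69.EQ

theorem fin5 {Y : Type*} [Group Y] [Finite Y] (f : Y →* Cfsg.semiaffineGroup (GaloisField 2 5))
    (hf : Function.Injective f) (hd : 32 * 155 ∣ Nat.card Y) :
    Nonempty (Y ≃* Cfsg.semiaffineGroup (GaloisField 2 5)) := by
  have hF : Nat.card (GaloisField 2 5) = 32 := by
    rw [GaloisField.card 2 5 (by norm_num)]; norm_num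
  have hS : Nat.card (Cfsg.semiaffineGroup (GaloisField 2 5)) = 4960 := by
    rw [card_semiaffine, hF, card_aut_galoisField 2 5 (by norm_num)]
  have hfinS : Finite (Cfsg.semiaffineGroup (GaloisField 2 5)) :=
    Nat.finite_of_card_ne_zero (by rw [hS]; norm_num)
  have hdvd : Nat.card Y ∣ 4960 := by
    rw [← hS]; exact Subgroup.card_dvd_of_injective f hf
  have hY : Nat.card Y = 4960 := Nat.dvd_antisymm hdvd (by simpa using hd)
  exact ⟨MulEquiv.ofBijective f ((Nat.bijective_iff_injective_and_card f).2 ⟨hf, by rw [hY, hS]⟩)⟩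

end Cfsg.Agent.Lib.Helper69.EQ
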