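import Cfsg.Agent.Lib.Helper69.EQ.Defs

set_option autoImplicit false

namespace Cfsg.Agent.Lib.Helper69.EQ

section
variable {p n : ℕ} [Fact p.Prime] {V : Type*} [AddCommGroup V] [Module (ZMod p) V] [Finite V]

theorem card_dvd_semiaffine {F : Type} [Field F] [Fintype F] (e : V ≃+ F) (Gh : Subgroup (V ≃ₗ[ZMod p] V))
    (hsl : ∀ g ∈ Gh, SemiLin e g) : Nat.card Gh ∣ Nat.card (Cfsg.semiaffineGroup F) := by
  classical
  -- the transport hom
  let c : (V ≃ₗ[ZMod p] V) →* Equiv.Perm F :=
    { toFun := fun g => e.symm.toEquiv.trans (g.toEquiv.trans e.toEquiv)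
      map_one' := by
        ext y
        simp
      map_mul' := by
        intro g h
        ext y
        simp }
  have hc : ∀ (g : V ≃ₗ[ZMod p] V) (y : F), c g y = e (g (e.symm y)) := fun g y => rfl
  have hcinj : Function.Injective c := by
    intro g h hgh
    ext v
    have := congrArg (fun s : Equiv.Perm F => s (e v)) hgh
    simp only [hc, AddEquiv.symm_apply_apply] at this
    exact e.injective this
  have hmem : ∀ g : Gh, c g ∈ Cfsg.semiaffineGroup F := by
    rintro ⟨g, hg⟩
    obtain ⟨a, σ, h⟩ := hsl g hg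
    have ha : a ≠ 0 := by
      intro ha
      have h0 : c g 0 = c g 1 := by
        rw [hc, hc, h, h, ha]
        simp
      exact zero_ne_one ((c g).injective h0)
    refine ⟨Units.mk0 a ha, 0, σ, fun x => ?_⟩
    rw [hc, h]
    simp
  let f : Gh →* Cfsg.semiaffineGroup F := (c.comp Gh.subtype).codRestrict _ hmem
  have hf : Function.Injective f := by
    intro x y hxy
    have := congrArg Subtype.val hxy
    exact Subtype.ext (hcinj this)
  exact Subgroup.card_dvd_of_injective f hf

end

end Cfsg.Agent.Lib.Helper69.EQ
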