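import Cfsg.Agent.Lib.Helper69.EQ.Defs

set_option autoImplicit false

namespace Cfsg.Agent.Lib.Helper69.EQ

section
variable {p n : ℕ} [Fact p.Prime] {V : Type*} [AddCommGroup V] [Module (ZMod p) V] [Finite V]

/-- `(l, c) ↦ l * c` -/
noncomputable def hatHom (L : Subgroup (V ≃ₗ[ZMod p] V)) : ↥L × (ZMod p)ˣ →* (V ≃ₗ[ZMod p] V) where
  toFun x := (x.1 : V ≃ₗ[ZMod p] V) * LinearEquiv.smulOfUnit x.2
  map_one' := by
    ext v
    simp [LinearEquiv.smulOfUnit]
  map_mul' x y := by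
    ext v
    simp [LinearEquiv.smulOfUnit, LinearEquiv.mul_apply, mul_smul, Units.smul_def]
    exact smul_comm _ _ _

theorem hatHom_apply (L : Subgroup (V ≃ₗ[ZMod p] V)) (x : ↥L × (ZMod p)ˣ) (v : V) :
    hatHom L x v = (x.1 : V ≃ₗ[ZMod p] V) ((x.2 : ZMod p) • v) := by
  simp [hatHom, LinearEquiv.smulOfUnit, LinearEquiv.mul_apply, Units.smul_def]

theorem exists_hat {L : Subgroup (V ≃ₗ[ZMod p] V)} (h : LCfg p n L) :
    ∃ Gh : Subgroup (V ≃ₗ[ZMod p] V), L ≤ Gh ∧ LCfg p n Gh ∧ HasScalars p Gh := by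
  have hp : p.Prime := Fact.out
  have hfin : Finite (V ≃ₗ[ZMod p] V) := finite_glv p V
  have hle : L ≤ (hatHom L).range := by
    intro g hg
    refine ⟨(⟨g, hg⟩, 1), ?_⟩
    ext v
    rw [hatHom_apply]
    simp
  refine ⟨(hatHom L).range, hle, ⟨h.card, ?_, ?_, ?_⟩, ?_⟩
  · have := h.solv
    exact Group.isSolvable_of_surjective (hatHom L).rangeRestrict_surjective
  · intro hd
    have h1 : Nat.card (hatHom L).range ∣ Nat.card (↥L × (ZMod p)ˣ) := Subgroup.card_range_dvd _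
    rw [Nat.card_prod, Nat.card_eq_fintype_card (α := (ZMod p)ˣ), ZMod.card_units p] at h1
    rcases (Nat.Prime.dvd_mul hp).1 (hd.trans h1) with h2 | h2
    · exact h.cop h2
    · have := Nat.le_of_dvd (by have := hp.two_le; omega) h2
      have := hp.two_le
      omega
  · intro A B hAB
    obtain ⟨g, hg, hgAB⟩ := h.trans A B hAB
    exact ⟨g, hle hg, hgAB⟩
  · intro c
    refine ⟨hatHom L (1, c), ⟨_, rfl⟩, fun v => ?_⟩
    rw [hatHom_apply]
    simp

end

end Cfsg.Agent.Lib.Helper69.EQ
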