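import Cfsg.Agent.Lib.Helper69.EQ.Defs
import Cfsg.Agent.Lib.Helper69.EQ.KQ
set_option autoImplicit false

namespace Cfsg.Agent.Lib.Helper69.EQ

universe u
variable {p n : ℕ} [Fact p.Prime] {X : Type u} [Group X] [Finite X] {Q : Subgroup X}
variable {V : Type*} [AddCommGroup V] [Module (ZMod p) V] [Finite V]

theorem range_solvable (h : Cfg p n Q) (lin : Lin p Q V) : Group.IsSolvable lin.ρ.range := by
  have := h.solv
  have hk : ∀ x ∈ Cfsg.pPrimeCore p X, lin.ρ.rangeRestrict x = 1 := by
    intro x hx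
    apply Subtype.ext
    exact core_le_ker h lin hx
  have hsurj : Function.Surjective (QuotientGroup.lift (Cfsg.pPrimeCore p X) lin.ρ.rangeRestrict hk) := by
    intro y
    obtain ⟨x, rfl⟩ := lin.ρ.rangeRestrict_surjective y
    exact ⟨QuotientGroup.mk x, rfl⟩
  exact Group.isSolvable_of_surjective hsurj

end Cfsg.Agent.Lib.Helper69.EQ
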