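import Cfsg.Agent.Lib.Helper69.EQ.Defs
import Cfsg.Agent.Lib.Helper69.EQ.KQ
set_option autoImplicit false

namespace Cfsg.Agent.Lib.Helper69.EQ

universe u
variable {p n : ℕ} [Fact p.Prime] {X : Type u} [Group X] [Finite X] {Q : Subgroup X}
variable {V : Type*} [AddCommGroup V] [Module (ZMod p) V] [Finite V]

theorem range_cop (h : Cfg p n Q) (lin : Lin p Q V) : ¬ p ∣ Nat.card lin.ρ.range := by
  intro hd
  apply h.idx
  rw [← Subgroup.index_ker] at hd
  exact hd.trans (Subgroup.index_dvd_of_le (Q_le_ker h lin))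

end Cfsg.Agent.Lib.Helper69.EQ
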