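import Cfsg.Agent.Lib.Helper69.EQ.Defs

set_option autoImplicit false

namespace Cfsg.Agent.Lib.Helper69.EQ

universe u

section
variable {p n : ℕ} [Fact p.Prime] {X : Type u} [Group X] [Finite X] {Q : Subgroup X}
variable {V : Type*} [AddCommGroup V] [Module (ZMod p) V] [Finite V]

theorem LC3_map_zero (lin : Lin p Q V) : lin.ι 0 = 1 := by
  have := lin.map_add 0 0
  rw [add_zero] at this
  exact (mul_eq_left.mp this.symm)

theorem LC3_map_neg (lin : Lin p Q V) (v : V) : lin.ι (-v) = (lin.ι v)⁻¹ := by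
  have := lin.map_add (-v) v
  rw [neg_add_cancel, LC3_map_zero] at this
  exact eq_inv_of_mul_eq_one_left this.symm

/-- the subgroup of `X` attached to a submodule -/
def LC3_sub (lin : Lin p Q V) (A : Submodule (ZMod p) V) : Subgroup X where
  carrier := {x | ∃ v ∈ A, ((lin.ι v : Q) : X) = x}
  mul_mem' := by
    rintro _ _ ⟨v, hv, rfl⟩ ⟨w, hw, rfl⟩
    exact ⟨v + w, A.add_mem hv hw, by rw [lin.map_add]; rfl⟩
  one_mem' := ⟨0, A.zero_mem, by rw [LC3_map_zero]; rfl⟩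
  inv_mem' := by
    rintro _ ⟨v, hv, rfl⟩
    exact ⟨-v, A.neg_mem hv, by rw [LC3_map_neg]; rfl⟩

theorem LC3_mem (lin : Lin p Q V) (A : Submodule (ZMod p) V) (x : X) :
    x ∈ LC3_sub lin A ↔ ∃ v ∈ A, ((lin.ι v : Q) : X) = x := Iff.rfl

theorem LC3_le (lin : Lin p Q V) (A : Submodule (ZMod p) V) : LC3_sub lin A ≤ Q := by
  rintro _ ⟨v, _, rfl⟩
  exact (lin.ι v).2

theorem LC3_card (lin : Lin p Q V) (A : Submodule (ZMod p) V) :
    Nat.card (LC3_sub lin A) = p ^ Module.finrank (ZMod p) A := by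
  have h1 : Nat.card (LC3_sub lin A) = Nat.card A := by
    symm
    refine Nat.card_congr (Equiv.ofBijective
      (fun v : A => (⟨((lin.ι v : Q) : X), ⟨v, v.2, rfl⟩⟩ : LC3_sub lin A)) ⟨?_, ?_⟩)
    · intro v w hvw
      have : ((lin.ι v : Q) : X) = ((lin.ι w : Q) : X) :=
        congrArg (fun z : LC3_sub lin A => (z : X)) hvw
      exact Subtype.ext (lin.ι.injective (Subtype.ext this))
    · rintro ⟨_, v, hv, rfl⟩
      exact ⟨⟨v, hv⟩, rfl⟩
  rw [h1, Module.natCard_eq_pow_finrank (K := ZMod p), Nat.card_zmod]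

theorem range_trans (h : Cfg p n Q) (lin : Lin p Q V) (A B : Submodule (ZMod p) V)
    (hAB : Module.finrank (ZMod p) A = Module.finrank (ZMod p) B) :
    ∃ g ∈ lin.ρ.range, A.map (g : V →ₗ[ZMod p] V) = B := by
  obtain ⟨m, hm⟩ := h.fus (LC3_sub lin A) (LC3_sub lin B) (LC3_le lin A) (LC3_le lin B)
    (by rw [LC3_card, LC3_card, hAB])
  refine ⟨lin.ρ m, ⟨m, rfl⟩, ?_⟩
  apply Submodule.eq_of_le_of_finrank_eq
  · rintro _ ⟨v, hv, rfl⟩
    have h1 : m * ((lin.ι v : Q) : X) * m⁻¹ ∈ LC3_sub lin B := by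
      rw [hm]
      exact ⟨_, ⟨v, hv, rfl⟩, by simp⟩
    obtain ⟨w, hw, hw2⟩ := h1
    rw [← lin.conj] at hw2
    have : w = lin.ρ m v := lin.ι.injective (Subtype.ext hw2)
    rw [this] at hw
    exact hw
  · rw [← hAB]
    exact LinearEquiv.finrank_map_eq (lin.ρ m) A

end

end Cfsg.Agent.Lib.Helper69.EQ
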