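import Cfsg.Agent.Lib.Helper69.EQ.Defs

set_option autoImplicit false

namespace Cfsg.Agent.Lib.Helper69.EQ

universe u

theorem LZ_aux {p : ℕ} {X : Type*} [Group X] {A : Type*} [CommGroup A]
    [Module (ZMod p) (Additive A)] (φ : X →* MulAut A) :
    ∃ ρ : X →* (Additive A ≃ₗ[ZMod p] Additive A),
      ∀ x a, ρ x (Additive.ofMul a) = Additive.ofMul (φ x a) := by
  let ρ0 : X → (Additive A ≃ₗ[ZMod p] Additive A) := fun x =>
    AddEquiv.toLinearEquiv (MulEquiv.toAdditive (φ x))
      (fun c v => ZMod.map_smul (MulEquiv.toAdditive (φ x)).toAddMonoidHom c v)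
  have h0 : ∀ x a, ρ0 x (Additive.ofMul a) = Additive.ofMul (φ x a) := fun x a => rfl
  have h1 : ρ0 1 = 1 := by
    apply LinearEquiv.ext
    intro v
    induction v using Additive.rec with
    | _ a => rw [h0]; simp
  have h2 : ∀ x y, ρ0 (x * y) = ρ0 x * ρ0 y := by
    intro x y
    apply LinearEquiv.ext
    intro v
    induction v using Additive.rec with
    | _ a => rw [h0, LinearEquiv.mul_apply, h0, h0]; simp
  exact ⟨{ toFun := ρ0, map_one' := h1, map_mul' := h2 }, h0⟩

section
variable {p n : ℕ} [Fact p.Prime] {X : Type u} [Group X] [Finite X] {Q : Subgroup X}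

theorem exists_lin (h : Cfg p n Q) :
    ∃ (V : Type u) (_ : AddCommGroup V) (_ : Module (ZMod p) V), Finite V ∧ Nonempty (Lin p Q V) := by
  classical
  have hn := h.normal
  let iC : CommGroup Q :=
    { (inferInstance : Group Q) with
      mul_comm := fun a b => Subtype.ext (h.comm a a.2 b b.2) }
  let iM : Module (ZMod p) (Additive Q) := AddCommGroup.zmodModule (by
    intro v
    induction v using Additive.rec with
    | _ a =>
      rw [← ofMul_pow]
      have : a ^ p = 1 := Subtype.ext (by simpa using h.exp a a.2)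
      rw [this]; rfl)
  obtain ⟨ρ, hρ⟩ := LZ_aux (p := p) (A := Q) (MulAut.conjNormal : X →* MulAut Q)
  refine ⟨Additive Q, inferInstance, iM, inferInstance, ⟨?_⟩⟩
  refine
    { ι := Additive.toMul
      ρ := ρ
      map_add := fun v w => rfl
      conj := ?_ }
  intro x v
  induction v using Additive.rec with
  | _ a =>
    rw [hρ]
    simp

end

end Cfsg.Agent.Lib.Helper69.EQ
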