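import Cfsg.Agent.Lib.Helper69.EQ.Defs

set_option autoImplicit false

namespace Cfsg.Agent.Lib.Helper69.EQ

section
variable {V : Type*} [AddCommGroup V] [Module (ZMod 3) V] [Finite V]

/-- the fixed submodule. -/
def N1_fixSub (A : Subgroup (V ≃ₗ[ZMod 3] V)) : Submodule (ZMod 3) V where
  carrier := {v | ∀ g ∈ A, g v = v}
  add_mem' := by
    intro a b ha hb g hg
    rw [map_add, ha g hg, hb g hg]
  zero_mem' := by
    intro g _
    exact map_zero g
  smul_mem' := by
    intro c a ha g hg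
    rw [map_smul, ha g hg]

theorem N1_fix (hV : Nat.card V = 81) (q : ℕ) [Fact q.Prime] (A : Subgroup (V ≃ₗ[ZMod 3] V))
    (hA : IsPGroup q A) :
    ∃ j ≤ 4, Nat.card {v : V // ∀ g ∈ A, g v = v} = 3 ^ j ∧ 81 ≡ 3 ^ j [MOD q] := by
  haveI : Fact (Nat.Prime 3) := ⟨by norm_num⟩
  have h1 : Nat.card (N1_fixSub A) = 3 ^ Module.finrank (ZMod 3) (N1_fixSub A) := by
    rw [Module.natCard_eq_pow_finrank (K := ZMod 3), Nat.card_zmod]
  have h2 : Nat.card {v : V // ∀ g ∈ A, g v = v} = Nat.card (N1_fixSub A) := rfl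
  have h3 : Nat.card (MulAction.fixedPoints ↥A V) = Nat.card {v : V // ∀ g ∈ A, g v = v} := by
    apply Nat.card_congr
    apply Equiv.subtypeEquivRight
    intro v
    rw [MulAction.mem_fixedPoints]
    constructor
    · intro h g hg
      exact h ⟨g, hg⟩
    · intro h g
      exact h g.1 g.2
  have h4 := hA.card_modEq_card_fixedPoints V
  rw [hV, h3, h2, h1] at h4
  refine ⟨Module.finrank (ZMod 3) (N1_fixSub A), ?_, h2.trans h1, h4⟩
  have h5 : Nat.card (N1_fixSub A) ≤ Nat.card V := Nat.card_le_card_of_injective _ Subtype.val_injective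
  rw [h1, hV, show (81 : ℕ) = 3 ^ 4 by norm_num] at h5
  exact (Nat.pow_le_pow_iff_right (by norm_num)).1 h5

theorem N1_bot (hV : Nat.card V = 81) (A : Subgroup (V ≃ₗ[ZMod 3] V))
    (h : Nat.card {v : V // ∀ g ∈ A, g v = v} = 3 ^ 4) : A = ⊥ := by
  have h1 : ∀ v : V, ∀ g ∈ A, g v = v := by
    have hs : Function.Surjective (Subtype.val : {v : V // ∀ g ∈ A, g v = v} → V) := by
      have hb : Function.Bijective (Subtype.val : {v : V // ∀ g ∈ A, g v = v} → V) := by
        rw [Nat.bijective_iff_injective_and_card]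
        exact ⟨Subtype.val_injective, by rw [h, hV]; norm_num⟩
      exact hb.2
    intro v
    obtain ⟨w, rfl⟩ := hs v
    exact w.2
  rw [eq_bot_iff]
  intro g hg
  rw [Subgroup.mem_bot]
  ext v
  exact h1 v g hg

/-- N1 -/
theorem card_fixed_13 (hV : Nat.card V = 81) (A : Subgroup (V ≃ₗ[ZMod 3] V)) (hA : IsPGroup 13 A) (hA1 : A ≠ ⊥) :
    Nat.card {v : V // ∀ g ∈ A, g v = v} = 3 := by
  haveI : Fact (Nat.Prime 13) := ⟨by norm_num⟩
  obtain ⟨j, hj, h1, h2⟩ := N1_fix hV 13 A hA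
  interval_cases j
  · exact absurd h2 (by decide)
  · rw [h1]; norm_num
  · exact absurd h2 (by decide)
  · exact absurd h2 (by decide)
  · exact absurd (N1_bot hV A h1) hA1

end

end Cfsg.Agent.Lib.Helper69.EQ
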