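import Cfsg.Agent.Lib.Helper69.EQ.Defs
import Cfsg.Agent.S0003
set_option autoImplicit false

namespace Cfsg.Agent.Lib.Helper69.EQ

theorem exists_hall_5_13 {L : Type*} [Group L] [Finite L] [Group.IsSolvable L] (h5 : 5 ∣ Nat.card L)
    (h13 : 13 ∣ Nat.card L) : ∃ (H : Subgroup L) (a b : ℕ), 1 ≤ a ∧ 1 ≤ b ∧ Nat.card H = 5 ^ a * 13 ^ b := by
  have p5 : Nat.Prime 5 := by norm_num
  have p13 : Nat.Prime 13 := by norm_num
  obtain ⟨a, c, hc5, hc⟩ := Nat.exists_eq_pow_mul_and_not_dvd (n := Nat.card L) Nat.card_pos.ne' 5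
    (by norm_num)
  have hc0 : c ≠ 0 := by
    rintro rfl
    exact hc5 (dvd_zero 5)
  obtain ⟨b, k, hk13, hk⟩ := Nat.exists_eq_pow_mul_and_not_dvd (n := c) hc0 13 (by norm_num)
  have ha : 1 ≤ a := by
    by_contra hcon
    have : a = 0 := by omega
    rw [this, pow_zero, one_mul] at hc
    exact hc5 (hc ▸ h5)
  have hb : 1 ≤ b := by
    by_contra hcon
    have hb0 : b = 0 := by omega
    rw [hb0, pow_zero, one_mul] at hk
    rw [hc] at h13
    have h1 : Nat.Coprime 13 (5 ^ a) := Nat.Coprime.pow_right a (by norm_num)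
    exact hk13 (hk ▸ h1.dvd_of_dvd_mul_left h13)
  have hk5 : ¬ 5 ∣ k := fun h => hc5 (hk ▸ Dvd.dvd.mul_left h _)
  have hcop : Nat.Coprime (5 ^ a * 13 ^ b) k :=
    Nat.Coprime.mul_left (Nat.Coprime.pow_left a ((Nat.Prime.coprime_iff_not_dvd p5).2 hk5))
      (Nat.Coprime.pow_left b ((Nat.Prime.coprime_iff_not_dvd p13).2 hk13))
  obtain ⟨H, hH⟩ := Cfsg.Agent.S0003.result (G := L) (5 ^ a * 13 ^ b) k
    (by rw [hc, hk, mul_assoc]) hcop
  exact ⟨H, a, b, ha, hb, hH⟩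

end Cfsg.Agent.Lib.Helper69.EQ
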