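import Cfsg.Agent.Lib.Helper69.EQ.Defs
import Cfsg.Agent.Lib.Helper69.EQ.N1

set_option autoImplicit false

namespace Cfsg.Agent.Lib.Helper69.EQ

section
variable {V : Type*} [AddCommGroup V] [Module (ZMod 3) V] [Finite V]

/-- N2 -/
theorem fixed_5 (hV : Nat.card V = 81) (a : V ≃ₗ[ZMod 3] V) (ha : orderOf a = 5) (v : V) (hv : a v = v) : v = 0 := by
  haveI : Fact (Nat.Prime 5) := ⟨by norm_num⟩
  have hA : IsPGroup 5 (Subgroup.zpowers a) := IsPGroup.of_card (n := 1) (by rw [Nat.card_zpowers, ha]; norm_num)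
  obtain ⟨j, hj, h1, h2⟩ := N1_fix hV 5 (Subgroup.zpowers a) hA
  have hfix : ∀ g ∈ Subgroup.zpowers a, g v = v := by
    have hle : Subgroup.zpowers a ≤ MulAction.stabilizer (V ≃ₗ[ZMod 3] V) v := by
      rw [Subgroup.zpowers_le, MulAction.mem_stabilizer_iff]
      exact hv
    intro g hg
    exact MulAction.mem_stabilizer_iff.1 (hle hg)
  interval_cases j
  · rw [pow_zero, Nat.card_eq_one_iff_unique] at h1
    have := h1.1
    have h3 : (⟨v, hfix⟩ : {v : V // ∀ g ∈ Subgroup.zpowers a, g v = v}) = ⟨0, fun g _ => map_zero g⟩ :=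
      Subsingleton.elim _ _
    exact congrArg Subtype.val h3
  · exact absurd h2 (by decide)
  · exact absurd h2 (by decide)
  · exact absurd h2 (by decide)
  · have h3 := N1_bot hV _ h1
    rw [Subgroup.zpowers_eq_bot] at h3
    rw [h3, orderOf_one] at ha
    norm_num at ha

end

end Cfsg.Agent.Lib.Helper69.EQ
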