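import Cfsg.Agent.Lib.Helper69.EQ.Defs
import Cfsg.Agent.Lib.Helper69.EQ.N2

set_option autoImplicit false

namespace Cfsg.Agent.Lib.Helper69.EQ

section
variable {V : Type*} [AddCommGroup V] [Module (ZMod 3) V] [Finite V]

theorem no_inv_three (hV : Nat.card V = 81) (a : V ≃ₗ[ZMod 3] V) (ha : orderOf a = 5) (S : Set V)
    (hS : Nat.card S = 3) (h0 : (0 : V) ∈ S) (hinv : ∀ v ∈ S, a v ∈ S) : False := by
  classical
  have hSn : S.ncard = 3 := by rw [← hS]; rfl
  obtain ⟨x, y, z, hxy, hxz, hyz, hSe⟩ := Set.ncard_eq_three.1 hSn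
  -- the key claim
  have key : ∀ v w : V, v ≠ 0 → w ≠ 0 → v ≠ w → S = {0, v, w} → False := by
    intro v w hv hw hvw hSe
    have hfix : ∀ u : V, u ≠ 0 → a u ≠ u := fun u hu h => hu (fixed_5 hV a ha u h)
    have hne : ∀ u : V, u ≠ 0 → a u ≠ 0 := by
      intro u hu h
      apply hu
      apply a.injective
      rw [h, map_zero]
    have hvS : v ∈ S := by rw [hSe]; simp
    have hwS : w ∈ S := by rw [hSe]; simp
    have h1 := hinv v hvS
    have h2 := hinv w hwS
    rw [hSe] at h1 h2
    simp only [Set.mem_insert_iff, Set.mem_singleton_iff] at h1 h2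
    have hav : a v = w := by
      rcases h1 with h | h | h
      · exact absurd h (hne v hv)
      · exact absurd h (hfix v hv)
      · exact h
    have haw : a w = v := by
      rcases h2 with h | h | h
      · exact absurd h (hne w hw)
      · exact h
      · exact absurd h (hfix w hw)
    have h5 : (a ^ 5) v = v := by
      rw [← ha, pow_orderOf_eq_one]; rfl
    have h5' : (a ^ 5) v = a (a (a (a (a v)))) := rfl
    rw [h5', hav, haw, hav, haw, hav] at h5
    exact hvw h5.symm
  rw [hSe] at h0
  simp only [Set.mem_insert_iff, Set.mem_singleton_iff] at h0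
  rcases h0 with h | h | h
  · subst h
    exact key y z (Ne.symm hxy) (Ne.symm hxz) hyz hSe
  · subst h
    refine key x z hxy (Ne.symm hyz) hxz ?_
    rw [hSe]; exact Set.insert_comm _ _ _
  · subst h
    refine key x y hxz hyz hxy ?_
    rw [hSe]
    ext t
    simp only [Set.mem_insert_iff, Set.mem_singleton_iff]
    tauto

end

end Cfsg.Agent.Lib.Helper69.EQ
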