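import Cfsg.Agent.Lib.Helper69.EQ.Defs
import Cfsg.Agent.Lib.Helper69.EQ.N1
import Cfsg.Agent.Lib.Helper69.EQ.N3

set_option autoImplicit false

namespace Cfsg.Agent.Lib.Helper69.EQ

section
variable {V : Type*} [AddCommGroup V] [Module (ZMod 3) V] [Finite V]

theorem no_normal_13 (hV : Nat.card V = 81) (A : Subgroup (V ≃ₗ[ZMod 3] V)) (hA : IsPGroup 13 A) (hA1 : A ≠ ⊥)
    (a : V ≃ₗ[ZMod 3] V) (ha : orderOf a = 5) (hn : ∀ g ∈ A, a⁻¹ * g * a ∈ A) : False := by
  refine no_inv_three hV a ha {v : V | ∀ g ∈ A, g v = v} (card_fixed_13 hV A hA hA1) ?_ ?_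
  · intro g _
    exact map_zero g
  · intro v hv g hg
    have h1 : (a⁻¹ * g * a) v = v := hv _ (hn g hg)
    have h2 : a ((a⁻¹ * g * a) v) = g (a v) := by
      have : a * (a⁻¹ * g * a) = g * a := by group
      calc a ((a⁻¹ * g * a) v) = (a * (a⁻¹ * g * a)) v := rfl
        _ = (g * a) v := by rw [this]
        _ = g (a v) := rfl
    rw [← h2, h1]

end

end Cfsg.Agent.Lib.Helper69.EQ
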