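import Cfsg.Agent.Lib.Helper69.EQ.Defs
import Cfsg.Agent.Lib.Helper69.EQ.N2

set_option autoImplicit false

namespace Cfsg.Agent.Lib.Helper69.EQ

section
variable {V : Type*} [AddCommGroup V] [Module (ZMod 3) V] [Finite V]

/-- the action on the nonzero vectors. -/
def N6_act (A : Subgroup (V ≃ₗ[ZMod 3] V)) : MulAction ↥A {v : V // v ≠ 0} where
  smul g v := ⟨g.1 v.1, (LinearEquiv.map_ne_zero_iff g.1).2 v.2⟩
  one_smul _ := Subtype.ext rfl
  mul_smul _ _ _ := Subtype.ext rfl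

/-- N6 -/
theorem card_eq_five (hV : Nat.card V = 81) (A : Subgroup (V ≃ₗ[ZMod 3] V)) (hA : IsPGroup 5 A) (hA1 : A ≠ ⊥) :
    Nat.card A = 5 := by
  haveI : Fact (Nat.Prime 5) := ⟨by norm_num⟩
  haveI := finite_glv 3 V
  letI := N6_act A
  have hfree : ∀ b : {v : V // v ≠ 0}, MulAction.stabilizer ↥A b = ⊥ := by
    intro b
    by_contra hne
    obtain ⟨k, hk⟩ := IsPGroup.iff_card.1 (hA.to_subgroup (MulAction.stabilizer ↥A b))
    have hk0 : k ≠ 0 := by
      rintro rfl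
      rw [pow_zero] at hk
      exact hne (Subgroup.card_eq_one.1 hk)
    have h5 : 5 ∣ Nat.card (MulAction.stabilizer ↥A b) := by rw [hk]; exact dvd_pow_self 5 hk0
    obtain ⟨x, hx⟩ := exists_prime_orderOf_dvd_card' 5 h5
    have hx' : orderOf ((x : ↥A) : V ≃ₗ[ZMod 3] V) = 5 := by
      rw [Subgroup.orderOf_coe, Subgroup.orderOf_coe, hx]
    have hfix : ((x : ↥A) : V ≃ₗ[ZMod 3] V) b.1 = b.1 :=
      congrArg Subtype.val (MulAction.mem_stabilizer_iff.1 x.2)
    exact b.2 (fixed_5 hV _ hx' b.1 hfix)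
  have h1 := Nat.card_congr (MulAction.selfEquivOrbitsQuotientProd hfree)
  rw [Nat.card_prod] at h1
  have h2 : Nat.card {v : V // v ≠ 0} = 80 := by
    have h3 : Nat.card {v : V // v ≠ 0} = (({0} : Set V)ᶜ).ncard := rfl
    rw [h3, Set.ncard_compl, Set.ncard_singleton, hV]
  have h4 : Nat.card A ∣ 80 := by rw [← h2, h1]; exact Dvd.intro_left _ rfl
  obtain ⟨k, hk⟩ := IsPGroup.iff_card.1 hA
  rw [hk] at h4 ⊢
  rcases k with _ | _ | k
  · rw [pow_zero] at hk
    exact absurd (Subgroup.card_eq_one.1 hk) hA1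
  · norm_num
  · exfalso
    have : 25 ∣ 80 := Dvd.dvd.trans ⟨5 ^ k, by ring⟩ h4
    norm_num at this

end

end Cfsg.Agent.Lib.Helper69.EQ
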