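import Cfsg.Agent.Lib.Helper69.EQ.Defs
set_option autoImplicit false

namespace Cfsg.Agent.Lib.Helper69.EQ

theorem centralizes_of_card_five {H : Type*} [Group H] (A : Subgroup H) (hA : Nat.card A = 5) (b : H)
    (hb : orderOf b = 13) (hn : ∀ g ∈ A, b * g * b⁻¹ ∈ A) : ∀ g ∈ A, g * b = b * g := by
  have hfin : Finite ↥A := Nat.finite_of_card_ne_zero (by rw [hA]; norm_num)
  have : Fact (Nat.Prime 5) := ⟨by norm_num⟩
  have hcyc : IsCyclic ↥A := isCyclic_of_prime_card hA
  have hbN : b ∈ Subgroup.normalizer (A : Set H) := by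
    have : Finite ((A : Set H) : Type _) := hfin
    exact Subgroup.mem_normalizer_fintype hn
  have h13 : (A.normalizerMonoidHom ⟨b, hbN⟩) ^ 13 = 1 := by
    rw [← map_pow]
    have : (⟨b, hbN⟩ : Subgroup.normalizer (A : Set H)) ^ 13 = 1 := by
      apply Subtype.ext
      show b ^ 13 = 1
      rw [← hb, pow_orderOf_eq_one]
    rw [this, map_one]
  have h4 : (A.normalizerMonoidHom ⟨b, hbN⟩) ^ 4 = 1 := by
    have h5 : Nat.card (MulAut ↥A) = 4 := by
      rw [IsCyclic.card_mulAut, hA, Nat.totient_prime (by norm_num)]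
    rw [← h5]
    exact pow_card_eq_one'
  have h1 : A.normalizerMonoidHom ⟨b, hbN⟩ = 1 := by
    have := pow_gcd_eq_one.2 ⟨h13, h4⟩
    simpa using this
  have h2 : (⟨b, hbN⟩ : Subgroup.normalizer (A : Set H)) ∈ A.normalizerMonoidHom.ker := h1
  rw [Subgroup.normalizerMonoidHom_ker, Subgroup.mem_subgroupOf] at h2
  exact fun g hg => Subgroup.mem_centralizer_iff.1 h2 g hg

end Cfsg.Agent.Lib.Helper69.EQ
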