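import Cfsg.Agent.Lib.Helper69.EQ.N4
import Cfsg.Agent.Lib.Helper69.EQ.N5
import Cfsg.Agent.Lib.Helper69.EQ.N6
import Cfsg.Agent.Lib.Helper69.EQ.N7
import Cfsg.Agent.Lib.Helper1.MinimalNormal

set_option autoImplicit false

namespace Cfsg.Agent.Lib.Helper69.EQ

variable {V : Type*} [AddCommGroup V] [Module (ZMod 3) V] [Finite V]

theorem no_5_13 (hV : Nat.card V = 81) (H : Subgroup (V ≃ₗ[ZMod 3] V)) (hs : Group.IsSolvable H) (a b : ℕ)
    (ha : 1 ≤ a) (hb : 1 ≤ b) (hH : Nat.card H = 5 ^ a * 13 ^ b) : False := by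
  have : Finite (V ≃ₗ[ZMod 3] V) := finite_glv 3 V
  have h5 : 5 ∣ Nat.card H := by
    rw [hH]; exact Dvd.dvd.mul_right (dvd_pow_self 5 (by omega)) _
  have h13 : 13 ∣ Nat.card H := by
    rw [hH]; exact Dvd.dvd.mul_left (dvd_pow_self 13 (by omega)) _
  have : Fact (Nat.Prime 5) := ⟨by norm_num⟩
  have : Fact (Nat.Prime 13) := ⟨by norm_num⟩
  obtain ⟨x5, hx5⟩ := exists_prime_orderOf_dvd_card' 5 h5
  obtain ⟨x13, hx13⟩ := exists_prime_orderOf_dvd_card' 13 h13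
  have hx5' : orderOf (x5 : V ≃ₗ[ZMod 3] V) = 5 := by rw [Subgroup.orderOf_coe, hx5]
  have hx13' : orderOf (x13 : V ≃ₗ[ZMod 3] V) = 13 := by rw [Subgroup.orderOf_coe, hx13]
  have : Nontrivial H := by
    rw [← Finite.one_lt_card_iff_nontrivial]
    exact lt_of_lt_of_le (by norm_num) (Nat.le_of_dvd Nat.card_pos h5)
  obtain ⟨r, A₀, hr, hn, hne, hp, -, -⟩ :=
    Cfsg.Agent.Lib.Helper1.exists_normal_pSubgroup_of_solvable (G := H)
  have hA1 : A₀.map H.subtype ≠ ⊥ := by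
    intro h
    exact hne ((Subgroup.map_eq_bot_iff_of_injective _ H.subtype_injective).1 h)
  have hpA : IsPGroup r (A₀.map H.subtype) := hp.map _
  have hnorm : ∀ x : H, ∀ g ∈ A₀.map H.subtype, (x : V ≃ₗ[ZMod 3] V) * g * (x : V ≃ₗ[ZMod 3] V)⁻¹ ∈
      A₀.map H.subtype := by
    rintro x _ ⟨g, hg, rfl⟩
    exact ⟨x * g * x⁻¹, hn.conj_mem g hg x, rfl⟩
  -- r divides card H
  have hrd : r ∣ Nat.card H := by
    have : Fact r.Prime := ⟨hr⟩
    obtain ⟨k, hk⟩ := IsPGroup.iff_card.1 hp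
    have hk0 : k ≠ 0 := by
      rintro rfl
      rw [pow_zero] at hk
      exact hne (Subgroup.card_eq_one.1 hk)
    exact (dvd_pow_self r hk0).trans (hk ▸ Subgroup.card_subgroup_dvd_card A₀)
  have hr' : r = 5 ∨ r = 13 := by
    rw [hH] at hrd
    rcases (Nat.Prime.dvd_mul hr).1 hrd with h | h
    · left
      exact (Nat.prime_dvd_prime_iff_eq hr (by norm_num)).1 (hr.dvd_of_dvd_pow h)
    · right
      exact (Nat.prime_dvd_prime_iff_eq hr (by norm_num)).1 (hr.dvd_of_dvd_pow h)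
  rcases hr' with rfl | rfl
  · have hc := card_eq_five hV _ hpA hA1
    have hcen := centralizes_of_card_five _ hc (x13 : V ≃ₗ[ZMod 3] V) hx13' (hnorm x13)
    obtain ⟨y, hy⟩ := exists_prime_orderOf_dvd_card' (G := A₀.map H.subtype) 5 (by rw [hc])
    have hy' : orderOf (y : V ≃ₗ[ZMod 3] V) = 5 := by rw [Subgroup.orderOf_coe, hy]
    exact no_commuting hV _ _ hy' hx13' (hcen y y.2)
  · refine no_normal_13 hV _ hpA hA1 _ hx5' fun g hg => ?_
    have := hnorm x5⁻¹ g hg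
    simpa using this

end Cfsg.Agent.Lib.Helper69.EQ
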