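import Cfsg.Agent.Lib.Helper69.EQ.Defs

set_option autoImplicit false
set_option linter.unusedSectionVars false
set_option linter.style.haveILetI false

/-! # EQ farm, piece ORB1: the number of 2-dimensional subspaces divides `|L|` -/

namespace Cfsg.Agent.Lib.Helper69.EQ

variable {p n : ℕ} [Fact p.Prime] {V : Type*} [AddCommGroup V] [Module (ZMod p) V] [Finite V]

/-- the action of `L` on the 2-dimensional subspaces -/
@[instance_reducible]
noncomputable def ORB1_act (L : Subgroup (V ≃ₗ[ZMod p] V)) : MulAction L (Lines p V) where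
  smul g W := ⟨W.1.map ((g : V ≃ₗ[ZMod p] V) : V →ₗ[ZMod p] V), by
    rw [LinearEquiv.finrank_map_eq]; exact W.2⟩
  one_smul W := Subtype.ext (by
    change W.1.map (((1 : L) : V ≃ₗ[ZMod p] V) : V →ₗ[ZMod p] V) = W.1
    ext x
    simp)
  mul_smul g h W := Subtype.ext (by
    change W.1.map (((g * h : L) : V ≃ₗ[ZMod p] V) : V →ₗ[ZMod p] V) =
      (W.1.map ((h : V ≃ₗ[ZMod p] V) : V →ₗ[ZMod p] V)).map
        ((g : V ≃ₗ[ZMod p] V) : V →ₗ[ZMod p] V)
    rw [← Submodule.map_comp]
    rfl)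

theorem ORB1_finrank (hV : Nat.card V = p ^ n) : Module.finrank (ZMod p) V = n := by
  have h1 := Module.natCard_eq_pow_finrank (K := ZMod p) (V := V)
  rw [hV, Nat.card_zmod] at h1
  exact (Nat.pow_right_injective (Fact.out : p.Prime).two_le h1).symm

theorem ORB1_nonempty (hV : Nat.card V = p ^ n) (hn : 2 ≤ n) : Nonempty (Lines p V) := by
  have hfr := ORB1_finrank (V := V) hV
  let b := Module.finBasis (ZMod p) V
  have hle : 2 ≤ Module.finrank (ZMod p) V := by rw [hfr]; exact hn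
  have hli : LinearIndependent (ZMod p) (b ∘ (Fin.castLE hle)) :=
    b.linearIndependent.comp _ (Fin.castLE_injective hle)
  refine ⟨⟨Submodule.span (ZMod p) (Set.range (b ∘ (Fin.castLE hle))), ?_⟩⟩
  rw [finrank_span_eq_card hli]
  simp

theorem ORB1_card_eq {L : Subgroup (V ≃ₗ[ZMod p] V)} (h : LCfg p n L) (W₀ : Lines p V) :
    letI := ORB1_act (p := p) (V := V) L
    Nat.card (Lines p V) * Nat.card (MulAction.stabilizer L W₀) = Nat.card L := by
  letI := ORB1_act (p := p) (V := V) L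
  have htr : MulAction.orbit L W₀ = Set.univ := by
    ext W
    simp only [Set.mem_univ, iff_true]
    obtain ⟨g, hg, hgW⟩ := h.trans W₀.1 W.1 (by rw [W₀.2, W.2])
    exact ⟨⟨g, hg⟩, Subtype.ext hgW⟩
  have h1 := MulAction.index_stabilizer L W₀
  rw [htr, Set.ncard_univ] at h1
  rw [← h1, mul_comm]
  exact Subgroup.card_mul_index _

theorem lines_dvd {L : Subgroup (V ≃ₗ[ZMod p] V)} (h : LCfg p n L) (hn : 2 ≤ n) :
    Nat.card (Lines p V) ∣ Nat.card L := by
  obtain ⟨W₀⟩ := ORB1_nonempty (V := V) h.card hn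
  exact Dvd.intro _ (ORB1_card_eq h W₀)

end Cfsg.Agent.Lib.Helper69.EQ
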