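import Cfsg.Agent.Lib.Helper69.EQ.CNT
import Cfsg.Agent.Lib.Helper69.EQ.ORB1
import Cfsg.Agent.Lib.Helper69.EQ.N8
import Cfsg.Agent.Lib.Helper69.EQ.N9

set_option autoImplicit false

namespace Cfsg.Agent.Lib.Helper69.EQ

variable {V : Type*} [AddCommGroup V] [Module (ZMod 3) V] [Finite V]

theorem not_81 {L : Subgroup (V ≃ₗ[ZMod 3] V)} (h : LCfg 3 4 L) : False := by
  have : Finite (V ≃ₗ[ZMod 3] V) := finite_glv 3 V
  have : Fact (Nat.Prime 3) := ⟨by norm_num⟩
  have hV : Nat.card V = 81 := by rw [h.card]; norm_num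
  have h1 := card_lines (p := 3) (n := 4) (V := V) h.card (by norm_num)
  have h2 : Nat.card (Lines 3 V) = 130 := by
    norm_num at h1
    omega
  have h3 := lines_dvd h (by norm_num)
  rw [h2] at h3
  have := h.solv
  obtain ⟨H, a, b, ha, hb, hH⟩ := exists_hall_5_13 (L := L) (Dvd.dvd.trans (by norm_num) h3)
    (Dvd.dvd.trans (by norm_num) h3)
  refine no_5_13 hV (H.map L.subtype) ?_ a b ha hb ?_
  · have e := (H.equivMapOfInjective L.subtype L.subtype_injective)
    exact solvable_of_surjective (f := e.toMonoidHom) e.surjective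
  · rw [Subgroup.card_map_of_injective L.subtype_injective, hH]

end Cfsg.Agent.Lib.Helper69.EQ
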