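import Cfsg.Agent.Lib.Helper69.EQ.Defs
import Cfsg.Agent.Lib.Helper69.EQ.N1
import Cfsg.Agent.Lib.Helper69.EQ.N3

set_option autoImplicit false

namespace Cfsg.Agent.Lib.Helper69.EQ

section
variable {V : Type*} [AddCommGroup V] [Module (ZMod 3) V] [Finite V]

theorem no_commuting (hV : Nat.card V = 81) (a b : V ≃ₗ[ZMod 3] V) (ha : orderOf a = 5) (hb : orderOf b = 13)
    (hab : a * b = b * a) : False := by
  have hcard : Nat.card (Subgroup.zpowers b) = 13 := by rw [Nat.card_zpowers, hb]
  have hA : IsPGroup 13 (Subgroup.zpowers b) := IsPGroup.of_card (n := 1) (by rw [hcard, pow_one])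
  have hA1 : Subgroup.zpowers b ≠ ⊥ := by
    intro h
    rw [h, Subgroup.card_bot] at hcard
    omega
  refine no_inv_three hV a ha {v : V | ∀ g ∈ Subgroup.zpowers b, g v = v}
    (card_fixed_13 hV _ hA hA1) ?_ ?_
  · intro g _
    exact map_zero g
  · intro v hv g hg
    have hc : Commute a g := by
      obtain ⟨k, rfl⟩ := Subgroup.mem_zpowers_iff.1 hg
      exact Commute.zpow_right hab k
    calc g (a v) = (g * a) v := rfl
      _ = (a * g) v := by rw [hc.eq]
      _ = a (g v) := rfl
      _ = a v := by rw [hv g hg]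

end

end Cfsg.Agent.Lib.Helper69.EQ
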