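import Cfsg.Agent.Lib.Helper69.EQ.Defs
import Cfsg.Agent.Lib.Helper69.EQ.ORB1

set_option autoImplicit false
set_option linter.unusedSectionVars false
set_option linter.style.haveILetI false

/-! # EQ farm, piece ORB2: `#lines * (p - 1)` divides `|Gh|` -/

namespace Cfsg.Agent.Lib.Helper69.EQ

variable {p n : ℕ} [Fact p.Prime] {V : Type*} [AddCommGroup V] [Module (ZMod p) V] [Finite V]

theorem ORB2_smul_mem {Gh : Subgroup (V ≃ₗ[ZMod p] V)} (hs : HasScalars p Gh) (c : (ZMod p)ˣ) :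
    LinearEquiv.smulOfUnit c ∈ Gh := by
  obtain ⟨g, hg, hgv⟩ := hs c
  have : LinearEquiv.smulOfUnit c = g := by
    ext v
    rw [hgv]
    rfl
  rw [this]
  exact hg

theorem lines_mul_dvd {Gh : Subgroup (V ≃ₗ[ZMod p] V)} (h : LCfg p n Gh) (hs : HasScalars p Gh) (hn : 2 ≤ n) :
    Nat.card (Lines p V) * (p - 1) ∣ Nat.card Gh := by
  obtain ⟨W₀⟩ := ORB1_nonempty (V := V) h.card hn
  letI := ORB1_act (p := p) (V := V) Gh
  haveI : Finite (V ≃ₗ[ZMod p] V) := finite_glv p V
  rw [← ORB1_card_eq h W₀]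
  apply Nat.mul_dvd_mul_left
  have hstab : ∀ c : (ZMod p)ˣ,
      (⟨LinearEquiv.smulOfUnit c, ORB2_smul_mem hs c⟩ : Gh) ∈ MulAction.stabilizer Gh W₀ := by
    intro c
    rw [MulAction.mem_stabilizer_iff]
    apply Subtype.ext
    change W₀.1.map ((LinearEquiv.smulOfUnit c : V ≃ₗ[ZMod p] V) : V →ₗ[ZMod p] V) = W₀.1
    ext x
    constructor
    · rintro ⟨y, hy, rfl⟩
      exact W₀.1.smul_mem (c : ZMod p) hy
    · intro hx
      refine ⟨((c⁻¹ : (ZMod p)ˣ) : ZMod p) • x, W₀.1.smul_mem _ hx, ?_⟩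
      change (c : ZMod p) • (((c⁻¹ : (ZMod p)ˣ) : ZMod p) • x) = x
      rw [smul_smul, Units.mul_inv, one_smul]
  let φ : (ZMod p)ˣ →* MulAction.stabilizer Gh W₀ :=
    { toFun := fun c => ⟨⟨LinearEquiv.smulOfUnit c, ORB2_smul_mem hs c⟩, hstab c⟩
      map_one' := by
        apply Subtype.ext; apply Subtype.ext
        ext v
        change ((1 : (ZMod p)ˣ) : ZMod p) • v = v
        simp
      map_mul' := by
        intro c d
        apply Subtype.ext; apply Subtype.ext
        ext v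
        change ((c * d : (ZMod p)ˣ) : ZMod p) • v = (c : ZMod p) • ((d : ZMod p) • v)
        rw [smul_smul, Units.val_mul] }
  have hnt : Nontrivial V := by
    rw [← Finite.one_lt_card_iff_nontrivial, h.card]
    exact Nat.one_lt_pow (by omega) (Fact.out : p.Prime).one_lt
  obtain ⟨v, hv⟩ := exists_ne (0 : V)
  have hinj : Function.Injective φ := by
    intro c d hcd
    have h1 : (LinearEquiv.smulOfUnit c : V ≃ₗ[ZMod p] V) = LinearEquiv.smulOfUnit d :=
      congrArg (fun x => ((x : MulAction.stabilizer Gh W₀) : Gh).1) hcd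
    have h2 : (c : ZMod p) • v = (d : ZMod p) • v := congrArg (fun g : V ≃ₗ[ZMod p] V => g v) h1
    have h3 : ((c : ZMod p) - (d : ZMod p)) • v = 0 := by rw [sub_smul, h2, sub_self]
    rcases smul_eq_zero.mp h3 with h4 | h4
    · exact Units.ext (sub_eq_zero.mp h4)
    · exact absurd h4 hv
  have hd := Subgroup.card_dvd_of_injective φ hinj
  rwa [Nat.card_eq_fintype_card, ZMod.card_units_eq_totient, Nat.totient_prime Fact.out] at hd

end Cfsg.Agent.Lib.Helper69.EQ
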