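import Cfsg.Agent.Lib.Helper69.EQ.Defs
import Cfsg.Agent.S0076

set_option autoImplicit false

namespace Cfsg.Agent.Lib.Helper69.EQ

section
variable {G : Type*} [Group G] [Finite G] {p : ℕ} [Fact p.Prime]

theorem fusion_in_normalizer
    (hC : ∀ H K : Subgroup G, IsPGroup p H → IsPGroup p K → Nat.card H = Nat.card K →
      ∃ g : G, K = H.map (MulAut.conj g).toMonoidHom) (P : Sylow p G)
    (hcomm : ∀ a ∈ (P : Subgroup G), ∀ b ∈ (P : Subgroup G), a * b = b * a)
    (A B : Subgroup G) (hA : A ≤ P) (hB : B ≤ P) (hAB : Nat.card A = Nat.card B) :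
    ∃ m ∈ Subgroup.normalizer ((P : Subgroup G) : Set G), B = A.map (MulAut.conj m).toMonoidHom := by
  obtain ⟨g, hg⟩ := hC A B (P.2.to_le hA) (P.2.to_le hB) hAB
  have inv : ∀ C : Subgroup G, C ≤ P → ∀ x ∈ P, (fun y => x * y * x⁻¹) '' (C : Set G) = C := by
    intro C hCP x hx
    ext y
    constructor
    · rintro ⟨z, hz, rfl⟩
      have : x * z * x⁻¹ = z := by
        rw [hcomm x hx z (hCP hz), mul_inv_cancel_right]
      simpa [this] using hz
    · intro hy
      refine ⟨y, hy, ?_⟩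
      change x * y * x⁻¹ = y
      rw [hcomm x hx y (hCP hy), mul_inv_cancel_right]
  have hg' : (fun y => g * y * g⁻¹) '' (A : Set G) = B := by
    rw [hg]
    ext y
    simp [MulAut.conj_apply]
  obtain ⟨m, hm, hmm⟩ := Cfsg.Agent.S0076.result P (A : Set G) (B : Set G) hA hB (inv A hA) (inv B hB)
    g hg'
  refine ⟨m, hm, ?_⟩
  apply SetLike.coe_injective
  rw [← hmm]
  ext y
  simp [MulAut.conj_apply]

end

end Cfsg.Agent.Lib.Helper69.EQ
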