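import Cfsg.Agent.Lib.Helper69.EQ.Defs
import Cfsg.Agent.Lib.Helper69.EQ.R1

set_option autoImplicit false

namespace Cfsg.Agent.Lib.Helper69.EQ

section
variable {G : Type*} [Group G] [Finite G] {p : ℕ} [Fact p.Prime]

theorem cfg_of_hyp
    (hC : ∀ H K : Subgroup G, IsPGroup p H → IsPGroup p K → Nat.card H = Nat.card K →
      ∃ g : G, K = H.map (MulAut.conj g).toMonoidHom) (P : Sylow p G) (n : ℕ)
    (hel : Cfsg.IsElementaryAbelian p (P : Subgroup G)) (hcard : Nat.card P = p ^ n)
    (N : Subgroup G) (hN : N = Subgroup.normalizer ((P : Subgroup G) : Set G))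
    (hsolv : Group.IsSolvable (↥N ⧸ Cfsg.pPrimeCore p ↥N)) :
    Cfg p n ((P : Subgroup G).subgroupOf N) := by
  have hPN : (P : Subgroup G) ≤ N := by rw [hN]; exact Subgroup.le_normalizer
  have hcomm : ∀ a ∈ (P : Subgroup G), ∀ b ∈ (P : Subgroup G), a * b = b * a := by
    intro a ha b hb
    have := hel.1.is_comm.comm ⟨a, ha⟩ ⟨b, hb⟩
    exact congrArg Subtype.val this
  refine ⟨?_, ?_, ?_, ?_, ?_, ?_, hsolv⟩
  · subst hN
    exact Subgroup.normal_in_normalizer
  · intro a ha b hb
    apply Subtype.ext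
    exact hcomm a.1 ha b.1 hb
  · intro a ha
    apply Subtype.ext
    exact hel.2 a.1 ha
  · rw [Nat.card_congr (Subgroup.subgroupOfEquivOfLe hPN).toEquiv]
    exact hcard
  · intro hdvd
    have h1 : ((P : Subgroup G).subgroupOf N).index = (P : Subgroup G).relIndex N := rfl
    rw [h1] at hdvd
    have h2 : (P : Subgroup G).relIndex N ∣ (P : Subgroup G).index :=
      Subgroup.relIndex_dvd_index_of_le hPN
    exact P.not_dvd_index (hdvd.trans h2)
  · intro A B hA hB hAB
    have hA' : A.map N.subtype ≤ (P : Subgroup G) := by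
      rintro _ ⟨a, ha, rfl⟩
      exact hA ha
    have hB' : B.map N.subtype ≤ (P : Subgroup G) := by
      rintro _ ⟨a, ha, rfl⟩
      exact hB ha
    have hc : Nat.card (A.map N.subtype) = Nat.card (B.map N.subtype) := by
      rw [Subgroup.card_map_of_injective N.subtype_injective,
        Subgroup.card_map_of_injective N.subtype_injective, hAB]
    obtain ⟨m, hm, hmm⟩ := fusion_in_normalizer hC P hcomm _ _ hA' hB' hc
    have hmN : m ∈ N := by rw [hN]; exact hm
    refine ⟨⟨m, hmN⟩, ?_⟩
    apply Subgroup.map_injective N.subtype_injective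
    rw [hmm, Subgroup.map_map, Subgroup.map_map]
    congr 1

end

end Cfsg.Agent.Lib.Helper69.EQ
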