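import Cfsg.Agent.Lib.Helper69.EQ.Defs
set_option autoImplicit false

namespace Cfsg.Agent.Lib.Helper69.EQ

variable {p n : ℕ} [Fact p.Prime] {V : Type*} [AddCommGroup V] [Module (ZMod p) V] [Finite V]

theorem transport (hV : Nat.card V = p ^ n) (hn : n ≠ 0) {F : Type} [Field F] [Fintype F] (e : V ≃+ F) :
    ∃ e' : V ≃+ GaloisField p n, ∀ g : V ≃ₗ[ZMod p] V, SemiLin e g → SemiLin e' g := by
  have hF : Nat.card F = p ^ n := by rw [← hV]; exact (Nat.card_congr e.toEquiv).symm
  have hchar : CharP F p := by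
    obtain ⟨c, hc⟩ := CharP.exists F
    have hcp : c.Prime := (CharP.char_is_prime_or_zero F c).resolve_right (CharP.char_ne_zero_of_finite F c)
    have : Fact c.Prime := ⟨hcp⟩
    obtain ⟨k, -, hk⟩ := FiniteField.card F c
    rw [Nat.card_eq_fintype_card, hk] at hF
    have h1 : c ∣ p ^ n := by
      rw [← hF]
      exact dvd_pow_self c k.ne_zero
    have h2 : c = p := (Nat.prime_dvd_prime_iff_eq hcp Fact.out).mp (hcp.dvd_of_dvd_pow h1)
    exact h2 ▸ hc
  letI := ZMod.algebra F p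
  let j : F ≃+* GaloisField p n := (GaloisField.algEquivGaloisField p n hF).toRingEquiv
  refine ⟨e.trans j.toAddEquiv, ?_⟩
  rintro g ⟨a, σ, h⟩
  refine ⟨j a, j.symm.trans (σ.trans j), ?_⟩
  intro v
  show j (e (g v)) = j a * j (σ (j.symm (j (e v))))
  rw [h, map_mul, RingEquiv.symm_apply_apply]

end Cfsg.Agent.Lib.Helper69.EQ
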