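import Cfsg.Agent.Lib.Helper69.EQ.Defs

set_option autoImplicit false

namespace Cfsg.Agent.Lib.Helper69.EQ

section
variable {p n : ℕ} [Fact p.Prime] {V : Type*} [AddCommGroup V] [Module (ZMod p) V] [Finite V]

theorem trans_vec {Gh : Subgroup (V ≃ₗ[ZMod p] V)} (h : LCfg p n Gh) (hs : HasScalars p Gh) :
    ∀ v w : V, v ≠ 0 → w ≠ 0 → ∃ g ∈ Gh, g v = w := by
  intro v w hv hw
  obtain ⟨g, hg, hgAB⟩ := h.trans (Submodule.span (ZMod p) {v}) (Submodule.span (ZMod p) {w})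
    (by rw [finrank_span_singleton hv, finrank_span_singleton hw])
  have h1 : g v ∈ Submodule.span (ZMod p) {w} := by
    rw [← hgAB]
    exact Submodule.mem_map_of_mem (Submodule.mem_span_singleton_self v)
  obtain ⟨c, hc⟩ := Submodule.mem_span_singleton.1 h1
  have hc0 : c ≠ 0 := by
    rintro rfl
    rw [zero_smul] at hc
    exact hv (g.map_eq_zero_iff.1 hc.symm)
  obtain ⟨s, hsG, hsv⟩ := hs (Units.mk0 c hc0)⁻¹
  refine ⟨s * g, Gh.mul_mem hsG hg, ?_⟩
  rw [LinearEquiv.mul_apply, hsv, ← hc, smul_smul]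
  simp [hc0]

end

end Cfsg.Agent.Lib.Helper69.EQ
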